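import Cfsg.Agent.Lib.Nagai.Char
import Cfsg.Agent.Lib.Big.Bender
import Cfsg.Agent.Lib.FT.GW.Dih

/-!
Simple groups of degree `3 p` with a Sylow `p`-normalizer of order `2 p`: the strongly embedded case.
-/

set_option autoImplicit false

namespace Cfsg.Lib.Nagai

open Subgroup MulAction Cfsg.Lib.FT Cfsg.Lib.Suz
open scoped Pointwise

variable {G : Type*} [Group G]

theorem ro_card_C [Finite G] {M Q : Subgroup G} {t s : G} (h : RO M Q t) (h2 : Rank2 Q) (hs : s ∈ Q)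
    (hs1 : s ≠ 1) (hs2 : s * s = 1) : Nat.card M = Nat.card (kset M t) * Nat.card C1[s] := by
  have h1 : C1[s] ≤ M := fun g hg => h.mem_H_of_comm hs hs1 (mem_centralizer_singleton_iff.1 hg)
  have h3 : (fun x => x * s * x⁻¹) '' (M : Set G) = (zsub Q : Set G) \ {1} := by
    ext u
    constructor
    · rintro ⟨g, hg, rfl⟩
      exact ⟨h.Z_norm h2 hg ((h.mem_Z h2).2 ⟨hs, hs2⟩), fun e => hs1 (by simpa using e)⟩
    · rintro ⟨hu, hu1⟩
      obtain ⟨k, hk, e⟩ := h.exists_K_conj hs hs2 hs1 (h.Z_le h2 hu) ((h.mem_Z h2).1 hu).2 hu1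
      exact ⟨k⁻¹, inv_mem (h.D_le hk.1), by simpa using e⟩
  have h4 := Bender.ncard_conj_eq_relIndex M s
  rw [h3, Set.ncard_diff_singleton_of_mem (zsub Q).one_mem, ← Nat.card_coe_set_eq,
    SetLike.coe_sort_coe, h.card_Z h2, Nat.add_sub_cancel] at h4
  rw [h4, relIndex_mul_card h1]

theorem ro_le [Finite G] [IsSimpleGroup G] {M Q : Subgroup G} {t : G} (h : RO M Q t) {Ω : Type*}
    [MulAction G Ω] {α : Ω} (hQ : Q ≤ stabilizer G α) (hne : ∀ ω : Ω, stabilizer G ω ≠ ⊤) :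
    stabilizer G α ≤ M := fun g hg => by
  by_contra hM
  obtain ⟨s, hs, hs2, hs1⟩ := h.exists_invol
  obtain ⟨y, hy, l, hl, e⟩ := h.invol_conj_t (u := g * s * g⁻¹) (fun e => hM (h.ti hs hs1 e))
    (by rw [conj_mul, hs2]; simp)
  have h1 : y * l ∈ M := mul_mem (h.le hy) (h.D_le hl.1)
  refine hne ((y * l) • α) (h.eq_top_of_simple (Bender.fix_smul hQ (h.H_le_N h1)) ?_)
  have h2 : (g * s * g⁻¹) • α = α := mul_mem (mul_mem hg (hQ hs)) (inv_mem hg)
  rw [e, mul_smul, mul_smul, inv_smul_eq_iff] at h2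
  exact h2

theorem numA1 {i s v n : ℕ} {a : ℤ} (h1 : i + 1 ∣ s) (hs : 0 < s) (hv : 0 < v) (hn : 2 ≤ n)
    (a0 : 0 ≤ a) (an : a ≤ n) (h : (i : ℤ) * (n - a) ^ 2 = s * v * n * (n - 1)) : i + 1 = s := by
  by_contra h2
  obtain ⟨k, rfl⟩ := h1
  have h3 : 2 ≤ k := by
    rcases k with _ | _ | k <;> omega
  have h4 : (n - a) ^ 2 ≤ (n : ℤ) ^ 2 := by nlinarith
  have h5 : (i : ℤ) * (n - a) ^ 2 ≤ i * n ^ 2 := by gcongr
  have h6 : (2 : ℤ) ≤ k * v := by nlinarith
  have h7 : ((i : ℤ) + 1) * 2 * (n * (n - 1)) ≤ (i + 1) * (k * v) * (n * (n - 1)) := by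
    have : (0 : ℤ) ≤ n * (n - 1) := by nlinarith
    gcongr
  push_cast at h
  have h8 : ((i : ℤ) + 1) * 2 * (n * (n - 1)) ≤ i * n ^ 2 := by linarith
  have h9 : (0 : ℤ) ≤ i * (n * (n - 2)) := by
    have : (0 : ℤ) ≤ n - 2 := by omega
    positivity
  nlinarith

theorem numA2 {i e v m k : ℕ} (hi : Odd i) (hm : 0 < m) (h : 3 * i * m = 2 ^ e * v * k) :
    2 ^ e ≤ m :=
  Nat.le_of_dvd hm (Nat.Coprime.dvd_of_dvd_mul_left (m := 3 * i)
    ((Nat.coprime_two_left.2 ((by decide : Odd 3).mul hi)).pow_left e) (by rw [h, mul_assoc]; simp))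

variable {p : ℕ} [hp : Fact p.Prime] {x : G} {Ω : Type*} [Fintype Ω] [MulAction G Ω]

omit hp [Fintype Ω] in
theorem nf_eq (g : G) : nf Ω g = (fixedBy Ω g).ncard := rfl

theorem Hyp.stab_ne (h : Hyp Ω p x) (ω : Ω) : stabilizer G ω ≠ ⊤ := fun e => by
  have := h.tr
  have h1 := index_stabilizer_of_transitive G ω
  rw [e, index_top, Nat.card_eq_fintype_card, h.card] at h1
  omega

theorem Hyp.exists_fix [Finite G] (h : Hyp Ω p x) {Q : Subgroup G} (hQ : IsPGroup 2 Q) :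
    ∃ α : Ω, Q ≤ stabilizer G α := by
  obtain ⟨α, hα⟩ := hQ.nonempty_fixed_point_of_prime_not_dvd_card Ω (by
    have := hp.out.eq_two_or_odd
    have := h.p3
    rw [Nat.card_eq_fintype_card, h.card]; omega)
  exact ⟨α, fun g hg => hα ⟨g, hg⟩⟩

variable [Fintype G] {n f : ℕ} {a : ℤ}

omit hp in
theorem Data.fix_eq (D : Data Ω p x n a f) {u v : G} (hu : orderOf u = 2) (hv : orderOf v = 2)
    (h : fixedBy Ω u ⊆ fixedBy Ω v) : fixedBy Ω u = fixedBy Ω v :=
  Set.eq_of_subset_of_ncard_le h (by rw [← nf_eq, ← nf_eq, D.fix u hu, D.fix v hv])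

theorem Hyp.se (h : Hyp Ω p x) (D : Data Ω p x n a f) {z : G} (hz : orderOf z = 2)
    (hA : ∀ u, orderOf u = 2 → u ∈ stabilizer G (fixedBy Ω z) → fixedBy Ω z ⊆ fixedBy Ω u) :
    IsStronglyEmbedded (stabilizer G (fixedBy Ω z)) := by
  have h1 := D.fix z hz
  have h2 := D.f_eq
  have h3 := h.p3
  refine ⟨fun e => ?_, even_iff_two_dvd.2 (hz ▸ Subgroup.orderOf_dvd_natCard _ ?_),
    fun g hg => GW.odd_of_forall ?_⟩
  · obtain ⟨α, hα⟩ : (fixedBy Ω z).Nonempty := Set.nonempty_of_ncard_ne_zero (by rw [← nf_eq]; omega)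
    have h4 : fixedBy Ω z = Set.univ := Set.eq_univ_of_forall fun ω => by
      have := h.tr
      obtain ⟨g, rfl⟩ := exists_smul_eq G α ω
      exact (mem_stabilizer_set.1 (e ▸ mem_top g : g ∈ stabilizer G (fixedBy Ω z)) α).2 hα
    rw [nf_eq, h4, Set.ncard_univ, Nat.card_eq_fintype_card, h.card] at h1
    omega
  · rw [mem_stabilizer_iff, smul_fixedBy, mul_inv_cancel_right]
  · rintro _ ⟨h4, u, h5, rfl⟩ h6
    have h7 : orderOf u = 2 := (sm_orderOf_conj g u).symm.trans h6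
    refine hg ?_
    rw [mem_stabilizer_iff]
    nth_rewrite 1 [D.fix_eq hz h7 (hA u h7 h5)]
    rw [smul_fixedBy]
    exact (D.fix_eq hz h6 (hA _ h6 h4)).symm

theorem Hyp.caseA [IsSimpleGroup G] (h : Hyp Ω p x) (D : Data Ω p x n a f) {M : Subgroup G}
    (hM : IsStronglyEmbedded M) :
    ¬ IsPreprimitive G Ω ∧ ∃ m, p = 2 ^ m + 1 ∧ Big.IsoPSL2 G (2 ^ m) := by
  have := h.tr
  have hp3 := h.p3
  have he : Even (Nat.card G) := hM.2.1.trans_dvd (card_subgroup_dvd_card M)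
  have h2 := not_pRankLE_of_simple h.nc he
  obtain ⟨S, h1, h3, -⟩ := Big.bender_local (oddCore_eq_bot_of_simple he) h2 hM
  obtain ⟨t, ro⟩ := exists_RO_of_local hM S h1 h3
  have r2 := rank2_of_not_pRankLE h2 S
  obtain ⟨α, hα⟩ := h.exists_fix S.isPGroup'
  have hle := ro_le ro hα h.stab_ne
  have hi : (stabilizer G α).index = 3 * p := by
    rw [index_stabilizer_of_transitive, Nat.card_eq_fintype_card, h.card]
  have hd := index_dvd_of_le hle
  rw [hi, ro.index_H] at hd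
  obtain ⟨s, hs, hs2, hs1⟩ := ro.exists_invol
  have hs3 : orderOf s = 2 := h9_orderOf_eq_two_iff.2 ⟨hs1, hs2⟩
  obtain ⟨v, hv⟩ : Nat.card (S : Subgroup G) ∣ Nat.card C1[s] := card_dvd_of_le fun y hy =>
    mem_centralizer_singleton_iff.2 (ro.invol_central r2 hs hs2 hy).symm
  have hv0 : 0 < v := Nat.pos_of_mul_pos_left (hv ▸ Nat.card_pos)
  have hG := ro.card_G
  rw [ro_card_C ro r2 hs hs1 hs2, hv] at hG
  have hF := D.form s hs3
  rw [hG, hv] at hF
  have hZ := ro.card_Z r2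
  have hZd := card_dvd_of_le (ro.Z_le r2)
  have hel : Nat.card (kset M t) + 1 = Nat.card (S : Subgroup G) →
      ∃ m, Nat.card (S : Subgroup G) = 2 ^ m ∧ Big.IsoPSL2 G (2 ^ m) := fun e => by
    have h4 := eq_of_le_of_card_ge (ro.Z_le r2) (by omega)
    obtain ⟨m, -, h5, h6⟩ := ro.isoPSL2 r2 fun y hy => ((ro.mem_Z r2).1 (h4.ge hy)).2
    exact ⟨m, h4 ▸ h5, h6⟩
  have hi2 : 2 ≤ Nat.card (kset M t) := by
    obtain ⟨k, hk, hk1⟩ := ro.exists_K_ne_one r2
    exact Finite.one_lt_card_iff_nontrivial.2 ⟨⟨k, hk⟩, ⟨1, one_mem _, by simp [ro.tt]⟩,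
      fun e => hk1 (congrArg Subtype.val e)⟩
  obtain ⟨e, he⟩ := S.isPGroup'.exists_card_eq
  rw [hZ] at hZd
  have hio : Odd (Nat.card (kset M t)) := by
    obtain ⟨j, -, hj⟩ := (Nat.dvd_prime_pow Nat.prime_two).1 (he ▸ hZd)
    rcases j with _ | j
    · omega
    · rw [Nat.odd_iff]; omega
  have hile := Nat.le_of_dvd Nat.card_pos hZd
  have hf1 : Nat.card (S : Subgroup G) + 1 = 3 * p → f = 1 := fun e => by
    have h4 : stabilizer G α = M := le_antisymm hle
      (relIndex_eq_one.1 (Nat.eq_of_mul_eq_mul_right (by omega : 0 < 3 * p) (by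
        rw [one_mul]; nth_rewrite 1 [← e, ← ro.index_H]; rw [relIndex_mul_index hle, hi])))
    rw [← D.fix s hs3, nf_eq, Set.ncard_eq_one]
    refine ⟨α, Set.eq_singleton_iff_unique_mem.2 ⟨hα hs, fun ω hω => ?_⟩⟩
    obtain ⟨g, rfl⟩ := exists_smul_eq G α ω
    refine h4.ge (ro.ti' hs hs1 (h4.le ?_))
    rw [mem_stabilizer_iff, mul_smul, mul_smul, hω, inv_smul_smul]
  generalize Nat.card (kset M t) = i at *
  have hs0 : 0 < Nat.card (S : Subgroup G) := Nat.card_pos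
  have hidx := ro.index_H
  generalize Nat.card (S : Subgroup G) = s at *
  have hc : ((s * v : ℕ) : ℤ) * p ≠ 0 := by positivity
  obtain ⟨d₁, d₂, h4, h5, h6⟩ := (Nat.dvd_mul ..).1 hd
  rcases (Nat.dvd_prime hp.out).1 h5 with rfl | rfl
  · have := Nat.le_of_dvd (by norm_num) h4
    omega
  rcases (Nat.dvd_prime Nat.prime_three).1 h4 with rfl | rfl
  · rw [one_mul] at h6
    have hcs := D.cases
    have hfe := D.f_eq
    obtain ⟨m, h7, h8⟩ := hel (numA1 (n := n) (a := a) hZd hs0 hv0 (by omega) (by omega) (by omega)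
      (mul_left_cancel₀ hc (by rw [← h6] at hF; push_cast at hF ⊢; linear_combination hF)))
    refine ⟨fun hpr => ?_, m, by omega, h8⟩
    have : Nontrivial Ω := Fintype.one_lt_card_iff_nontrivial.1 (by rw [h.card]; omega)
    refine hM.1 ((IsPreprimitive.isCoatom_stabilizer_of_isPreprimitive G α).2 M
      (lt_of_le_of_ne hle fun e => ?_))
    rw [e] at hi
    omega
  exfalso
  have hF' : (3 * i : ℤ) * (n - a) ^ 2 = s * v * n * (n - 1) :=
    mul_left_cancel₀ hc (by rw [← h6] at hF; push_cast at hF ⊢; linear_combination hF)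
  obtain rfl := hf1 h6.symm
  rcases D.cases with ⟨h7, rfl⟩ | ⟨h7, h8⟩ | ⟨h7, rfl, -⟩
  · obtain ⟨k, rfl⟩ : ∃ k, n = k + 1 := ⟨n - 1, by omega⟩
    have := numA2 (e := e) (v := v) (m := k + 1) (k := k) hio k.succ_pos (by
      rw [← he]
      zify
      apply mul_left_cancel₀ (by positivity : (k + 1 : ℤ) ≠ 0)
      push_cast at hF'
      linear_combination hF')
    omega
  · obtain rfl : a = 0 := by omega
    obtain rfl : n = s := by omega
    obtain ⟨k, rfl⟩ : ∃ k, n = k + 1 := ⟨n - 1, by omega⟩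
    have h9 : 3 * i = v * k := by
      zify
      apply mul_left_cancel₀ (by positivity : (k + 1 : ℤ) ^ 2 ≠ 0)
      push_cast at hF'
      linear_combination hF'
    have h10 : 3 ∣ v := (Nat.prime_three.dvd_mul.1 ⟨i, h9.symm⟩).resolve_right (by omega)
    obtain ⟨w, rfl⟩ := h10
    have h11 : i = w * k := by nlinarith
    have h12 : w = 1 := by
      by_contra h12
      have : 2 * k ≤ w * k := Nat.mul_le_mul_right k (by omega)
      omega
    subst h12
    obtain ⟨m, h13, F, _, _, h14, ⟨φ⟩⟩ := hel (by omega)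
    have h15 := Nat.card_le_card_of_surjective _
      (QuotientGroup.mk'_surjective (center (Matrix.SpecialLinearGroup (Fin 2) F)))
    rw [h9_card_sl2, h14, ← h13, show (k + 1) ^ 2 - 1 = k * (k + 2) from
      Nat.sub_eq_of_eq_add (by ring)] at h15
    have h16 := (Nat.card_congr φ.toEquiv).le.trans h15
    rw [hG, h11] at h16
    have hk : 0 < k := by omega
    have : 0 < k * (k + 1) * (k + 2) := by positivity
    nlinarith
  · obtain ⟨k, rfl⟩ : ∃ k, n = k + 1 := ⟨n - 1, by omega⟩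
    have := numA2 (e := e) (v := v) (m := k) (k := k + 1) hio (by omega) (by
      rw [← he]
      zify
      apply mul_left_cancel₀ (by omega : (k : ℤ) ≠ 0)
      push_cast at hF'
      linear_combination hF')
    omega

end Cfsg.Lib.Nagai
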