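import Cfsg.Agent.Lib.Small.RecPSL2Even
import Cfsg.Agent.Lib.Bender.CharMA
import Cfsg.Agent.Lib.FT.GW.Defs

/-!
Simple groups of degree `3 p` with a Sylow `p`-normalizer of order `2 p`: the characters.
-/

set_option autoImplicit false

namespace Cfsg.Lib.Nagai

open Subgroup MulAction Finset Cfsg.Lib.OC Cfsg.Lib.Bender
open scoped ComplexConjugate

variable {G : Type*} [Group G] {p : ℕ} [hp : Fact p.Prime] {x : G}

omit hp in
theorem avg_le [Finite G] {χ : G → ℂ} (h : IsCharacter G χ) {A D : Subgroup G} (hA : D ≤ A)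
    {a d : ℕ} (ha : avg A χ = a) (hd : avg D χ = d) : a ≤ d := by
  obtain ⟨m, ρ, rfl⟩ := h
  rw [avg_eq_finrank] at ha hd
  norm_cast at ha hd
  have hle : Representation.invariants (ρ.comp A.subtype) ≤
      Representation.invariants (ρ.comp D.subtype) := fun v hv g => hv ⟨g, hA g.2⟩
  have := Submodule.finrank_mono hle
  omega

/-- the value at an involution inverting an element of order `p` -/
theorem val_of_inverts [Finite G] (hx : orderOf x = p) (h2 : 2 < p) {u : G} (hu : orderOf u = 2)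
    (hi : u * x * u⁻¹ = x⁻¹) {φ : G → ℂ} (h : IsCharacter G φ) {c : ℂ}
    (hc : ∀ i, 0 < i → i < p → φ (x ^ i) = c) {m : ℕ} (hm : φ 1 + (p - 1) * c = p * m) :
    ∃ k ≤ m, φ u = 2 * k - m := by
  have hp0 : (p : ℂ) ≠ 0 := by exact_mod_cast hp.out.ne_zero
  have h1 : u * x * u⁻¹ = x ^ (p - 1) := by
    rw [hi, inv_eq_iff_mul_eq_one, ← pow_succ', Nat.sub_add_cancel hp.out.pos, ← hx,
      pow_orderOf_eq_one]
  have h3 := avg_frobenius hx hu h1 ((Nat.coprime_primes hp.out Nat.prime_two).2 (by omega))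
    (fun j h4 h5 => by
      obtain rfl : j = 1 := by omega
      rw [pow_one, Nat.mod_eq_of_lt (by omega)]; omega) h.isClassFunction hc
  have h4 := avg_zpowers hx hc
  rw [hm, inv_mul_cancel_left₀ hp0] at h4
  obtain ⟨k, hk⟩ := exists_avg_nat h (zpowers x ⊔ zpowers u)
  refine ⟨k, avg_le h le_sup_left hk h4, ?_⟩
  rw [hk, hm] at h3
  simp only [Nat.add_one_sub_one, range_one, sum_singleton, zero_add, pow_one] at h3
  push_cast at h3
  field_simp at h3
  linear_combination -h3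

omit hp in
theorem isCharacter_sub [Fintype G] {π : G → ℂ} (h : IsCharacter G π) (B : Finset (IrrCharacter G))
    (hB : ∀ ζ ∈ B, classInner π ζ.1 ≠ 0) : IsCharacter G (π - ∑ ζ ∈ B, ζ.1) := by
  classical
  refine isCharacter_of_inner_nat (h.isClassFunction.sub
    (isClassFunction_sum _ _ fun ζ _ => ζ.2.isClassFunction)) fun ξ hξ => ?_
  obtain ⟨n, hn⟩ := h.inner_nat hξ.isCharacter
  rw [classInner_sub_left, classInner_sum_left, hn,
    sum_congr rfl fun ζ _ => irr_inner ζ ⟨ξ, hξ⟩, sum_ite_eq']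
  split_ifs with h1
  · have h2 := hB _ h1
    rw [hn] at h2
    obtain ⟨k, rfl⟩ := Nat.exists_eq_succ_of_ne_zero (by exact_mod_cast h2 : n ≠ 0)
    exact ⟨k, by simp⟩
  · exact ⟨n, by simp⟩

omit hp in
theorem eq_zero_of_one [Finite G] {π : G → ℂ} (h : IsCharacter G π) (h1 : π 1 = 0) (g : G) :
    π g = 0 := by
  have := h.norm_le g
  rw [h1, norm_zero] at this
  exact norm_le_zero_iff.1 this

/-- the number of fixed points -/
noncomputable def nf (Ω : Type*) [MulAction G Ω] (g : G) : ℕ := Nat.card {ω : Ω // g • ω = ω}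

omit hp in
theorem pch_nf {Ω : Type*} [Fintype G] [Fintype Ω] [MulAction G Ω] (g : G) :
    pch Ω g = nf Ω g := congrFun (pch_eq Ω) g

/-- the hypothesis -/
structure Hyp (Ω : Type*) [Fintype Ω] [MulAction G Ω] (p : ℕ) [Fact p.Prime] (x : G) : Prop where
  nc : ¬ IsMulCommutative G
  p3 : 3 < p
  tr : IsPretransitive G Ω
  card : Fintype.card Ω = 3 * p
  hx : orderOf x = p
  hi : ¬ p ∣ (zpowers x).index
  hE : Nat.card (d1E hx) = 2
  hV : Nat.card (d1V p x) = 1

variable {Ω : Type*} [Fintype Ω] [MulAction G Ω]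

theorem exists_hyp [Finite G] [IsSimpleGroup G] (hG : ¬ IsMulCommutative G) (hp3 : 3 < p)
    (htr : IsPretransitive G Ω) (hΩ : Fintype.card Ω = 3 * p) (P : Sylow p G)
    (hN : Nat.card ↥(normalizer ((P : Subgroup G) : Set G)) = 2 * p) : ∃ x : G, Hyp Ω p x := by
  obtain ⟨a⟩ : Nonempty Ω := Fintype.card_pos_iff.1 (by omega)
  have h1 : p ∣ Nat.card G := by
    rw [← (stabilizer G a).index_mul_card, index_stabilizer_of_transitive, Nat.card_eq_fintype_card,
      hΩ]
    exact (dvd_mul_left p 3).mul_right _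
  have h2 : Nat.card (P : Subgroup G) ∣ 2 * p := hN ▸ card_dvd_of_le le_normalizer
  obtain ⟨k, hk⟩ := P.isPGroup'.exists_card_eq
  have h3 : Nat.card (P : Subgroup G) = p := by
    have h4 : k ≠ 0 := by
      rintro rfl
      exact P.ne_bot_of_dvd_card h1 (card_eq_one.1 hk)
    obtain ⟨k, rfl⟩ := Nat.exists_eq_succ_of_ne_zero h4
    rw [hk, pow_succ] at h2
    have h5 := Nat.dvd_of_mul_dvd_mul_right hp.out.pos h2
    rcases k with _ | k
    · simpa using hk
    · have := Nat.le_of_dvd two_pos ((dvd_pow_self p k.succ_ne_zero).trans h5)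
      omega
  have := isCyclic_of_prime_card h3
  obtain ⟨x, hx⟩ := (P : Subgroup G).isCyclic_iff_exists_zpowers_eq_top.1 this
  have h4 : orderOf x = p := by rw [← Nat.card_zpowers, hx, h3]
  have h5 : ¬ p ∣ (zpowers x).index := hx ▸ P.not_dvd_index
  obtain ⟨n, e, v, -, -, -, -, h6, h7, h8, -, -, h9⟩ := d1_numeric hG h4 h5
  rw [hx, hN] at h9
  have h10 : 2 = e * v := Nat.eq_of_mul_eq_mul_right hp.out.pos (by rw [h9]; ring)
  have h11 : e = 2 := ((Nat.dvd_prime Nat.prime_two).1 ⟨v, h10⟩).resolve_left h6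
  exact ⟨x, hG, hp3, htr, hΩ, h4, h5, h7.trans h11, by rw [h8]; rw [h11] at h10; omega⟩

namespace Hyp

variable (h : Hyp Ω p x)
include h

theorem card_eq (a : Ω) : Nat.card G = 3 * p * Nat.card (stabilizer G a) := by
  have := h.tr
  rw [← (stabilizer G a).index_mul_card, index_stabilizer_of_transitive, Nat.card_eq_fintype_card,
    h.card]

theorem not_fix [Finite G] {g : G} (hg : p ∣ orderOf g) (a : Ω) : g • a ≠ a := fun e =>
  not_sq_dvd_of_index h.hx h.hi (by
    rw [h.card_eq a, sq]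
    exact Nat.mul_dvd_mul (dvd_mul_left p 3) (hg.trans ((stabilizer G a).orderOf_dvd_natCard e)))

theorem nf_eq_zero [Finite G] {g : G} (hg : p ∣ orderOf g) : nf Ω g = 0 := by
  have : IsEmpty {ω : Ω // g • ω = ω} := ⟨fun a => h.not_fix hg a.1 a.2⟩
  exact Nat.card_of_isEmpty

theorem card_sylow [Finite G] : Nat.card G = Nat.card (Sylow p G) * p * 2 := by
  rw [d1_card_eq h.hx h.hi, h.hE, h.hV, mul_one]

theorem nf_invol [Fintype G] {u : G} (hu : orderOf u = 2) (hi : u * x * u⁻¹ = x⁻¹) :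
    nf Ω u = 1 ∨ nf Ω u = 3 := by
  have h3 := h.p3
  obtain ⟨k, h1, h2⟩ := val_of_inverts h.hx (by omega) hu hi (pch_char (G := G) Ω) (c := 0) (m := 3)
    (fun i h1 h2 => by
      rw [pch_nf, h.nf_eq_zero (orderOf_pow_eq h.hx h1 h2).symm.dvd, Nat.cast_zero])
    (by rw [pch_one, h.card]; push_cast; ring)
  rw [pch_nf] at h2
  have h4 : (nf Ω u : ℤ) = 2 * k - 3 := by exact_mod_cast h2
  omega

theorem inner_one [Fintype G] : classInner (pch Ω : G → ℂ) 1 = 1 := by
  have := h.tr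
  have h3 := h.p3
  obtain ⟨a⟩ : Nonempty Ω := Fintype.card_pos_iff.1 (by rw [h.card]; omega)
  apply mul_left_cancel₀ (natCard_complex_ne_zero G)
  rw [card_mul_classInner, mul_one,
    ← (sum_trans (G := G) (fun _ : Ω => True) (fun _ _ _ => trivial) (x₀ := a) trivial
      (fun y _ => exists_smul_eq G a y)).1]
  simp only [pch, Pi.one_apply, map_one, mul_one]
  refine sum_congr rfl fun g _ => sum_congr rfl fun ω _ => ?_
  by_cases e : g • ω = ω <;> simp [e]

theorem oneClass_of [Finite G]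
    (H : ∀ t : G, orderOf t = 2 → ∃ u, IsConj t u ∧ u * x * u⁻¹ = x⁻¹) : GW.OneClass G := by
  intro s t hs ht
  obtain ⟨u, h1, h2⟩ := H s hs
  obtain ⟨v, h3, h4⟩ := H t ht
  have h5 : v * u⁻¹ ∈ zpowers x := by
    rw [← d1_centralizer_eq_of_card_V h.hx h.hi h.hV, mem_centralizer_singleton_iff]
    have h6 : u⁻¹ * x⁻¹ * u = x := by rw [← h2]; group
    calc v * u⁻¹ * x = v * (u⁻¹ * x⁻¹ * u)⁻¹ * u⁻¹ := by group
      _ = (v * x * v⁻¹)⁻¹ * v * u⁻¹ := by rw [h6]; group
      _ = _ := by rw [h4]; group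
  have h6 := d1_isConj_of_inverts h.hx (by have := h.p3; omega) h2 h5
  rw [inv_mul_cancel_right] at h6
  exact (h1.trans h6).trans h3.symm

end Hyp

/-- the numerical data -/
structure Data (Ω : Type*) [Fintype G] [Fintype Ω] [MulAction G Ω] (p : ℕ) (x : G) (n : ℕ) (a : ℤ)
    (f : ℕ) : Prop where
  one : GW.OneClass G
  fix : ∀ t : G, orderOf t = 2 → nf Ω t = f
  f_eq : f = 1 ∨ f = 3
  form : ∀ t : G, orderOf t = 2 → (Nat.card G : ℤ) * (n - a) ^ 2 =
    Nat.card (centralizer ({t} : Set G)) ^ 2 * p * n * (n - 1)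
  deg : ∀ ζ : IrrCharacter G, irrDeg ζ = 1 ∨ irrDeg ζ = n ∨ irrDeg ζ + 1 = n ∨ p ∣ irrDeg ζ
  four : 4 ∣ (n : ℤ) - a
  cases : n + 1 = p ∧ a = 0 ∨ n + 1 = 3 * p ∧ a + 1 = f ∨ n + 1 = 2 * p ∧ a = 1 ∧
    ∃ χ ψ : IrrCharacter G, χ ≠ triv G ∧ ψ ≠ triv G ∧ χ ≠ ψ ∧ (pch Ω : G → ℂ) = 1 + χ.1 + ψ.1 ∧
      χ.1 1 = n ∧ ψ.1 1 = p ∧ χ.1 x = -1 ∧ ψ.1 x = 0 ∧ ∀ t : G, orderOf t = 2 → χ.1 t = 1

theorem Hyp.exists_data [Fintype G] [IsSimpleGroup G] (h : Hyp Ω p x) :
    ∃ n a f, Data Ω p x n a f := by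
  classical
  have hp3 := h.p3
  have hx := h.hx
  obtain ⟨D⟩ := d1_nonempty_data h.hx h.hi
  obtain ⟨χ, hχ, h1⟩ : ∃ χ ∈ D.X, χ ≠ triv G :=
    exists_mem_ne (by rw [D.card_X, h.hE]; norm_num) _
  have hX : D.X = {triv G, χ} := (eq_of_subset_of_card_le
    (insert_subset (a := triv G) D.one_mem (singleton_subset_iff.mpr hχ))
    (by rw [D.card_X, h.hE, card_pair h1.symm])).symm
  have hG := sm_commutator_eq_top h.nc
  have hn1 : 1 < irrDeg χ := one_lt_irrDeg hG h1
  have hε1 : D.ε (triv G) = 1 := D.ε_one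
  have hd1 : irrDeg (triv G) = 1 := irrDeg_one
  have hv1 : ∀ g, (triv G).1 g = 1 := fun _ => rfl
  have hd := D.degree_eq
  rw [hX, sum_pair h1.symm, hε1, hd1] at hd
  have hd0 := D.d_pos
  have hδ : D.δ = D.ε χ ∧ (D.d : ℤ) = irrDeg χ + D.ε χ := by
    rcases D.δ_eq with e | e <;> rcases D.ε_eq χ hχ with e' | e' <;> rw [e, e'] at hd ⊢ <;> omega
  have hδδ : (D.δ : ℂ) * D.δ = 1 := by exact_mod_cast D.δ_mul_self
  have hreg : ∀ k g, ¬ p ∣ orderOf g → (D.θ k).1 g = D.δ + χ.1 g := fun k g hg => by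
    have h3 := D.reg k g hg
    rw [hX, sum_pair h1.symm, hε1, hv1, ← hδ.1] at h3
    push_cast at h3
    linear_combination D.δ * h3 - ((D.θ k).1 g - χ.1 g) * hδδ
  have h2p : ∀ t : G, orderOf t = 2 → ¬ p ∣ orderOf t := fun t ht e => by
    have := Nat.le_of_dvd two_pos (ht ▸ e); omega
  have hn0 : (irrDeg χ : ℂ) ≠ 0 := by exact_mod_cast (irrDeg_pos χ).ne'
  have hd0' : (D.d : ℂ) ≠ 0 := by exact_mod_cast hd0.ne'
  have hdc : (D.d : ℂ) = irrDeg χ + D.δ := by rw [hδ.1]; exact_mod_cast hδ.2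
  have key : ∀ t : G, orderOf t = 2 → ∀ a : ℤ, χ.1 t = a → a < irrDeg χ →
      (∃ u, IsConj t u ∧ u * x * u⁻¹ = x⁻¹) ∧ (Nat.card G : ℤ) * (irrDeg χ - a) ^ 2 =
        Nat.card (centralizer ({t} : Set G)) ^ 2 * p * irrDeg χ * D.d := fun t ht a ha hlt => by
    have h0 : ((irrDeg χ : ℂ) - a) ≠ 0 := by
      have : (irrDeg χ : ℤ) - a ≠ 0 := by omega
      exact_mod_cast this
    obtain ⟨h3, h4⟩ := D.invol_formula h.hi h.hV (by omega) ht
      (E := (irrDeg χ - a) ^ 2 / (irrDeg χ * D.d)) (by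
        rw [hX, sum_pair h1.symm, hreg 1 t (h2p t ht), ha, hε1, hd1, hv1, ← hδ.1, map_add,
          map_intCast, map_intCast, map_one]
        field_simp
        rw [hdc]
        push_cast
        linear_combination (a ^ 2 - irrDeg χ * D.δ - 2 * irrDeg χ * a) * hδδ)
      (div_ne_zero (pow_ne_zero _ h0) (mul_ne_zero hn0 hd0'))
    refine ⟨h3, ?_⟩
    field_simp at h4
    have h5 : ((Nat.card G : ℤ) * (irrDeg χ - a) ^ 2 : ℤ) =
        ((Nat.card (centralizer ({t} : Set G)) ^ 2 * p * irrDeg χ * D.d : ℤ) : ℂ) := by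
      push_cast
      linear_combination h4
    exact_mod_cast h5
  have hinv : ∀ t : G, orderOf t = 2 → ∃ u, IsConj t u ∧ u * x * u⁻¹ = x⁻¹ := fun t ht => by
    obtain ⟨a, h3, -, -, h4, -⟩ := exists_invol_val hG h1 ht
    exact (key t ht a h3 h4).1
  have hone := h.oneClass_of hinv
  obtain ⟨t₀, ht₀⟩ := exists_prime_orderOf_dvd_card' (G := G) 2 (h.card_sylow ▸ dvd_mul_left _ _)
  obtain ⟨u, hu0, hu⟩ := hinv t₀ ht₀
  have hu2 : orderOf u = 2 := (sm_orderOf_eq_of_isConj hu0).trans ht₀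
  obtain ⟨a, ha, h4, ha1, ha2, -⟩ := exists_invol_val hG h1 hu2
  have hf := h.nf_invol hu2 hu
  have hπ := pch_char (G := G) Ω
  have hval : ∀ t : G, orderOf t = 2 → χ.1 t = a := fun t ht =>
    (χ.2.isClassFunction.eq_of_isConj (hone t u ht hu2)).trans ha
  have hfix : ∀ t : G, orderOf t = 2 → nf Ω t = nf Ω u := fun t ht => by
    have := hπ.isClassFunction.eq_of_isConj (hone t u ht hu2)
    rw [pch_nf, pch_nf] at this
    exact_mod_cast this
  have hrel : ∀ k, classInner (pch Ω : G → ℂ) (D.θ k).1 = D.δ + classInner (pch Ω) χ.1 := fun k => by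
    apply mul_left_cancel₀ (natCard_complex_ne_zero G)
    have h5 := card_mul_classInner (pch Ω : G → ℂ) 1
    rw [h.inner_one] at h5
    rw [mul_add, card_mul_classInner, card_mul_classInner, ← mul_one (Nat.card G : ℂ), h5, sum_mul,
      ← sum_add_distrib]
    refine sum_congr rfl fun g _ => ?_
    by_cases hg : p ∣ orderOf g
    · simp [pch_nf, h.nf_eq_zero hg]
    · simp [hreg k g hg, mul_add]
  have hπ1 : pch Ω (1 : G) = (3 * p : ℕ) := by rw [pch_one, h.card]
  have hi1 : classInner (pch Ω : G → ℂ) (triv G).1 ≠ 0 := by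
    rw [show (triv G).1 = 1 from rfl, h.inner_one]; exact one_ne_zero
  obtain ⟨m, hm⟩ := hπ.inner_nat χ.2.isCharacter
  have hdX := D.oc_deg_X hχ
  have hε : D.ε χ = -1 := by
    refine (D.ε_eq χ hχ).resolve_left fun e => ?_
    have h5 := isCharacter_sub hπ (insert (triv G) (univ.image D.θ)) (fun ζ hζ => by
      rcases mem_insert.1 hζ with rfl | hζ
      · exact hi1
      · obtain ⟨k, -, rfl⟩ := mem_image.1 hζ
        rw [hrel, hm, hδ.1, e]
        exact_mod_cast (by omega : (1 : ℤ) + m ≠ 0))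
    have h6 : ∀ g, ¬ p ∣ orderOf g → 
        (pch Ω - ∑ ζ ∈ insert (triv G) (univ.image D.θ), ζ.1 : G → ℂ) g = pch Ω g - 1 - (d1E hx).index * (1 + χ.1 g) := fun g hg => by
      rw [sum_insert (fun e' => by
        obtain ⟨k, -, hk⟩ := mem_image.1 e'
        exact D.θ_ne_one k hk), sum_image fun a _ b _ e' => D.θ_inj e']
      simp only [Pi.sub_apply, Pi.add_apply, Finset.sum_apply, hreg _ g hg, hδ.1, e, hv1]
      simp [index, Nat.card_eq_fintype_card]
      ring
    obtain ⟨r, hr⟩ := h5.exists_one_eq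
    have h7 := card_d1E_mul_index hx
    rw [h.hE] at h7
    have h8 := h6 1 (by simp [hp.out.one_lt.ne'])
    rw [hr, hπ1, coe_irrDeg] at h8
    have h9 : (r : ℤ) = (3 * p : ℕ) - 1 - (d1E hx).index * (1 + irrDeg χ) := by exact_mod_cast h8
    rw [e] at hdX
    obtain ⟨j, hj⟩ := hdX
    have hj1 : 1 ≤ j := by
      by_contra h10
      have : (p : ℤ) * j ≤ 0 := mul_nonpos_of_nonneg_of_nonpos (by omega) (by omega)
      omega
    have h10 : (p : ℤ) + 1 ≤ irrDeg χ := by nlinarith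
    generalize (d1E hx).index = i at *
    have h11 : (p : ℤ) = 2 * i + 1 := by omega
    have h12 : i ≤ 2 := by
      by_contra h12
      push_cast at h9
      nlinarith
    obtain rfl : i = 2 := by omega
    obtain rfl : p = 5 := by omega
    have h13 : irrDeg χ = 6 ∧ r = 0 := by omega
    have h14 := eq_zero_of_one h5 (by rw [hr, h13.2, Nat.cast_zero]) u
    rw [h6 u (h2p u hu2), pch_nf, ha] at h14
    have h15 : (nf Ω u : ℤ) - 1 - (2 : ℕ) * (1 + a) = 0 := by exact_mod_cast h14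
    omega
  have hm0 : classInner (pch Ω : G → ℂ) χ.1 ≠ 0 := by
    obtain ⟨m', hm'⟩ := hπ.inner_nat (D.θ 1).2.isCharacter
    have h5 := hrel 1
    rw [hm', hm, hδ.1, hε] at h5
    have h6 : (m' : ℤ) = -1 + m := by exact_mod_cast h5
    rw [hm]
    exact_mod_cast (by omega : m ≠ 0)
  have hR := isCharacter_sub hπ {triv G, χ} (fun ζ hζ => by
    rcases mem_insert.1 hζ with rfl | hζ
    · exact hi1
    · exact mem_singleton.1 hζ ▸ hm0)
  rw [sum_pair h1.symm] at hR
  obtain ⟨r, hr⟩ := hR.exists_one_eq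
  have hr' : (3 * p : ℕ) - (1 + irrDeg χ : ℤ) = r := by
    simp only [Pi.sub_apply, Pi.add_apply, hπ1, hv1, coe_irrDeg] at hr
    exact_mod_cast hr
  have hsing : ∀ i, 0 < i → i < p → χ.1 (x ^ i) = -1 := fun i h5 h6 => by
    rw [D.val_sing h.hi hχ (orderOf_pow_eq hx h5 h6).symm.dvd, hε]; simp
  rw [hε] at hdX hδ
  obtain ⟨j, hj⟩ := hdX
  have hdeg : ∀ ζ : IrrCharacter G, ζ = triv G ∨ ζ = χ ∨ irrDeg ζ + 1 = irrDeg χ ∨ p ∣ irrDeg ζ :=
    fun ζ => by
      by_cases h5 : InB0 p ζ.1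
      · rcases (D.mem_iff ζ).1 (mem_d1B0.2 h5) with h6 | ⟨k, rfl⟩
        · rw [hX, mem_insert, mem_singleton] at h6
          tauto
        · rw [D.irrDeg_θ]; omega
      · exact Or.inr (Or.inr (Or.inr (d1_dvd_of_not_inB0 hx h.hi h.hV h5)))
  refine ⟨irrDeg χ, a, nf Ω u, hone, hfix, hf, fun t ht => ?_, fun ζ => ?_, h4, ?_⟩
  · rw [(key t ht a (hval t ht) ha2).2, hδ.2]; ring
  · rcases hdeg ζ with rfl | rfl | h5 | h5 <;> simp [*]
  have hj3 : j = 1 ∨ j = 2 ∨ j = 3 := by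
    have h5 : 0 < j := by
      by_contra h5
      have : (p : ℤ) * j ≤ 0 := mul_nonpos_of_nonneg_of_nonpos (by omega) (by omega)
      omega
    have h6 : j ≤ 3 := by
      by_contra h6
      push_cast at hr'
      nlinarith
    omega
  rcases hj3 with rfl | rfl | rfl
  · obtain ⟨k, h5, h6⟩ := val_of_inverts hx (by omega) hu2 hu χ.2.isCharacter hsing (m := 0) (by
      rw [coe_irrDeg, show (irrDeg χ : ℂ) = p - 1 by exact_mod_cast (by omega : (irrDeg χ : ℤ) = p - 1)]
      push_cast; ring)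
    rw [ha] at h6
    have h7 : a = 2 * k - (0 : ℕ) := by exact_mod_cast h6
    exact Or.inl ⟨by omega, by omega⟩
  · obtain ⟨k, h5, h6⟩ := val_of_inverts hx (by omega) hu2 hu χ.2.isCharacter hsing (m := 1) (by
      rw [coe_irrDeg, show (irrDeg χ : ℂ) = 2 * p - 1 by
        exact_mod_cast (by omega : (irrDeg χ : ℤ) = 2 * p - 1)]
      push_cast; ring)
    rw [ha] at h6
    have h7 : a = 2 * k - (1 : ℕ) := by exact_mod_cast h6
    have h8 := hp.out.eq_two_or_odd
    have h9 : a = 1 := by omega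
    have hrp : r = p := by omega
    obtain ⟨ψ, hψ, h10, -⟩ := exists_common hR.isClassFunction hR.isClassFunction (fun e => by
      rw [eq_zero_of_classInner_self _ e] at hr
      have : r = 0 := by exact_mod_cast (show (r : ℂ) = 0 from hr.symm)
      omega)
    have hR2 := isCharacter_sub hR {⟨ψ, hψ⟩} (fun ζ hζ => mem_singleton.1 hζ ▸ h10)
    rw [sum_singleton] at hR2
    obtain ⟨r2, hr2⟩ := hR2.exists_one_eq
    have h11 : (r : ℤ) - irrDeg ⟨ψ, hψ⟩ = r2 := by
      rw [Pi.sub_apply, hr, coe_irrDeg ⟨ψ, hψ⟩] at hr2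
      exact_mod_cast hr2
    have h12 : (⟨ψ, hψ⟩ : IrrCharacter G) ≠ triv G := fun e => h10 (by
      rw [show ψ = (triv G).1 from congrArg Subtype.val e, classInner_sub_left, classInner_add_left,
        irr_inner, irr_inner, if_pos rfl, if_neg h1, show (triv G).1 = 1 from rfl, h.inner_one]
      simp)
    have h13 : irrDeg ⟨ψ, hψ⟩ = p := by
      rcases hdeg ⟨ψ, hψ⟩ with e | e | e | e
      · exact absurd e h12
      · rw [e] at h11; omega
      · omega
      · have := Nat.le_of_dvd (irrDeg_pos _) e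
        omega
    have h14 : (pch Ω : G → ℂ) = 1 + χ.1 + ψ := funext fun g => by
      have := eq_zero_of_one hR2 (by rw [hr2, show r2 = 0 by omega, Nat.cast_zero]) g
      simp only [Pi.sub_apply, Pi.add_apply, hv1, Pi.one_apply] at this ⊢
      linear_combination this
    have h15 : χ.1 x = -1 := by simpa using hsing 1 one_pos (by omega)
    refine Or.inr (Or.inr ⟨by omega, h9, χ, ⟨ψ, hψ⟩, h1, h12, fun e => ?_, h14, coe_irrDeg χ,
      by rw [coe_irrDeg, h13], h15, ?_, fun t ht => by rw [hval t ht, h9, Int.cast_one]⟩)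
    · rw [← e] at h13; omega
    · have := congrFun h14 x
      rw [pch_nf, h.nf_eq_zero hx.symm.dvd, Pi.add_apply, Pi.add_apply, h15] at this
      simpa using this.symm
  · have h5 := eq_zero_of_one hR (by rw [hr, show r = 0 by omega, Nat.cast_zero]) u
    simp only [Pi.sub_apply, Pi.add_apply, pch_nf, hv1, ha] at h5
    have h6 : (nf Ω u : ℤ) - (1 + a) = 0 := by exact_mod_cast h5
    exact Or.inr (Or.inl ⟨by omega, by omega⟩)

end Cfsg.Lib.Nagai
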