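import Cfsg.Agent.Lib.Nagai.Char
import Cfsg.Agent.Lib.Steiner.Chapman

/-!
Simple groups of degree `3 p` with a Sylow `p`-normalizer of order `2 p`: the case of rank three.
-/

set_option autoImplicit false

namespace Cfsg.Lib.Nagai

open Subgroup MulAction Finset Cfsg.Lib.OC Cfsg.Lib.Bender
open scoped ComplexConjugate

theorem alg_two {p k l : ℤ} {b₁ b₂ : ℚ} (h1 : k + l + 1 = 3 * p)
    (h2 : k * b₁ + l * b₂ = 3 * (2 * p - 1)) (h3 : k * b₁ ^ 2 + l * b₂ ^ 2 = 6 * (2 * p - 1))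
    (h4 : b₁ = 2) : False := by
  subst h4
  have h5 : l * b₂ * (b₂ - 2) = 0 := by linear_combination h3 - 2 * h2
  rcases mul_eq_zero.1 h5 with e | e
  · have h6 : (k : ℚ) * 2 = 3 * (2 * p - 1) := by linear_combination h2 - e
    have h7 : k * 2 = 3 * (2 * p - 1) := by exact_mod_cast h6
    omega
  · have h6 : ((k : ℚ) + l) * 2 = 3 * (2 * p - 1) := by linear_combination h2 - l * e
    have h7 : (k + l) * 2 = 3 * (2 * p - 1) := by exact_mod_cast h6
    omega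

theorem alg_six {p k l : ℤ} {b₁ b₂ : ℚ} (h1 : k + l + 1 = 3 * p)
    (h2 : k * b₁ + l * b₂ = 3 * (2 * p - 1)) (h3 : k * b₁ ^ 2 + l * b₂ ^ 2 = 6 * (2 * p - 1))
    (h4 : b₁ + 2 * b₂ = 6) : 2 * p = 6 * (k - p) ^ 2 + 3 * (k - p) + 1 := by
  obtain ⟨ρ, rfl⟩ : ∃ ρ, k = p + ρ := ⟨k - p, by ring⟩
  obtain rfl : l = 2 * p - 1 - ρ := by omega
  obtain rfl : b₁ = 6 - 2 * b₂ := by linarith
  push_cast at h2 h3
  have h5 : b₂ * (3 * ρ + 1) = 3 * (2 * ρ + 1) := by linear_combination -h2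
  have h6 : (2 * p : ℚ) = 6 * ρ ^ 2 + 3 * ρ + 1 := by
    have h7 : (p + ρ) * ((6 - 2 * b₂) * (3 * ρ + 1)) ^ 2 + (2 * p - 1 - ρ) * (b₂ * (3 * ρ + 1)) ^ 2 =
        6 * (2 * p - 1) * (3 * ρ + 1) ^ 2 := by linear_combination (3 * ρ + 1) ^ 2 * h3
    rw [show (6 - 2 * b₂) * (3 * ρ + 1) = 6 * ρ by linear_combination -2 * h5, h5] at h7
    linear_combination h7 / 3
  have h7 : 2 * p = 6 * ρ ^ 2 + 3 * ρ + 1 := by exact_mod_cast h6
  rw [add_sub_cancel_left, h7]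

theorem alg_main {p k l h A₁ A₂ m : ℤ} (hp : 1 < p) (hh : 0 < h) (h1 : k + l + 1 = 3 * p)
    (h2 : k * A₁ + l * A₂ = 3 * h * (p - 1))
    (h3 : (2 * p - 1) * (k * A₁ ^ 2 + l * A₂ ^ 2) = 6 * h ^ 2 * (p - 1) ^ 2)
    (h4 : (2 * p - 1) * (m * A₁ + (3 - m) * A₂) = 6 * h * (p - 1)) (m0 : 0 ≤ m) (m3 : m ≤ 3) :
    ∃ ρ : ℤ, 2 * p = 6 * ρ ^ 2 + 3 * ρ + 1 ∧ ∀ s : ℤ, s ∣ l → s ∣ 2 * p - 2 → s ∣ 8 := by
  have c1 : (h : ℚ) ≠ 0 := by exact_mod_cast hh.ne'
  have c2 : (p : ℚ) - 1 ≠ 0 := by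
    have : p - 1 ≠ 0 := by omega
    exact_mod_cast this
  have e2 : (k : ℚ) * ((2 * p - 1) * A₁ / (h * (p - 1))) + l * ((2 * p - 1) * A₂ / (h * (p - 1))) =
      3 * (2 * p - 1) := by
    have : (k : ℚ) * A₁ + l * A₂ = 3 * h * (p - 1) := by exact_mod_cast h2
    field_simp
    linear_combination (2 * p - 1) * this
  have e3 : (k : ℚ) * ((2 * p - 1) * A₁ / (h * (p - 1))) ^ 2 +
      l * ((2 * p - 1) * A₂ / (h * (p - 1))) ^ 2 = 6 * (2 * p - 1) := by
    have : (2 * p - 1 : ℚ) * (k * A₁ ^ 2 + l * A₂ ^ 2) = 6 * h ^ 2 * (p - 1) ^ 2 := by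
      exact_mod_cast h3
    field_simp
    linear_combination (2 * p - 1) * this
  have e4 : (m : ℚ) * ((2 * p - 1) * A₁ / (h * (p - 1))) +
      (3 - m) * ((2 * p - 1) * A₂ / (h * (p - 1))) = 6 := by
    have : (2 * p - 1 : ℚ) * (m * A₁ + (3 - m) * A₂) = 6 * h * (p - 1) := by exact_mod_cast h4
    field_simp
    linear_combination this
  generalize (2 * p - 1 : ℚ) * A₁ / (h * (p - 1)) = b₁ at e2 e3 e4
  generalize (2 * p - 1 : ℚ) * A₂ / (h * (p - 1)) = b₂ at e2 e3 e4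
  interval_cases m
  · exact (alg_two (p := p) (k := l) (l := k) (b₁ := b₂) (b₂ := b₁) (by omega) (by linarith) (by linarith)
      (by push_cast at e4; linarith)).elim
  · have h5 := alg_six h1 e2 e3 (by push_cast at e4; linarith)
    refine ⟨_, h5, fun s h6 h7 => ?_⟩
    obtain ⟨ρ, rfl⟩ : ∃ ρ, k = p + ρ := ⟨k - p, by ring⟩
    rw [add_sub_cancel_left] at h5
    have h8 : (8 : ℤ) = l - (6 * ρ + 8) * (2 * p - 2 - l) := by
      rw [show l = 2 * p - 1 - ρ by omega, h5]; ring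
    rw [h8]
    exact h6.sub ((h7.sub h6).mul_left _)
  · have h5 := alg_six (p := p) (k := l) (l := k) (b₁ := b₂) (b₂ := b₁) (by omega) (by linarith)
      (by linarith) (by push_cast at e4; linarith)
    refine ⟨_, h5, fun s h6 h7 => ?_⟩
    obtain ⟨ρ, rfl⟩ : ∃ ρ, l = p + ρ := ⟨l - p, by ring⟩
    rw [add_sub_cancel_left] at h5
    have h8 : (8 : ℤ) = (12 - 24 * ρ) * (p + ρ) - (6 - 12 * ρ - 4) * (2 * p - 2) := by
      linear_combination (-4) * h5
    rw [h8]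
    exact (h6.mul_left _).sub (h7.mul_left _)
  · exact (alg_two h1 e2 e3 (by push_cast at e4; linarith)).elim

variable {G : Type*} [Group G] [Fintype G] {Ω : Type*} [Fintype Ω] [MulAction G Ω]

open Classical in
/-- the number of conjugations of `t` moving `ω` to `ω'` -/
noncomputable def tw (t : G) (ω ω' : Ω) : ℕ := ∑ y : G, if (y * t * y⁻¹) • ω = ω' then 1 else 0

omit [Fintype Ω] in
theorem tw_smul (t g : G) (ω ω' : Ω) : tw t (g • ω) (g • ω') = tw t ω ω' := by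
  classical
  unfold tw
  rw [← Equiv.sum_comp (Equiv.mulLeft g)]
  refine sum_congr rfl fun y _ => if_congr ?_ rfl rfl
  rw [Equiv.coe_mulLeft, ← mul_smul, show g * y * t * (g * y)⁻¹ * g = g * (y * t * y⁻¹) by group,
    mul_smul, smul_left_cancel_iff]

omit [Fintype Ω] in
theorem tw_symm {t : G} (ht : orderOf t = 2) (ω ω' : Ω) : tw t ω ω' = tw t ω' ω := by
  classical
  refine sum_congr rfl fun y _ => if_congr ?_ rfl rfl
  rw [smul_eq_iff_eq_inv_smul, conj_inv, BSW.inv_eq_of_orderOf_two ht, eq_comm]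

theorem sum_tw (t g : G) : ∑ y, pch Ω (y * t * y⁻¹ * g) = ∑ ω : Ω, (tw t (g • ω) ω : ℂ) := by
  simp only [pch, tw]
  rw [sum_comm]
  push_cast
  refine sum_congr rfl fun ω _ => sum_congr rfl fun y _ => ?_
  rw [mul_smul]

theorem sum_tw_mul (t : G) (ω : Ω) (F : Ω → ℕ) :
    ∑ y, F ((y * t * y⁻¹) • ω) = ∑ ω', tw t ω ω' * F ω' := by
  classical
  simp only [tw, sum_mul]
  rw [sum_comm]
  refine sum_congr rfl fun y _ => ?_
  rw [sum_eq_single ((y * t * y⁻¹) • ω)] <;> simp +contextual [eq_comm]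

open Classical in
variable (G) in
/-- the number of fixed points in a set, summed over the group -/
noncomputable def cnt (A : Ω → Prop) : ℂ := ∑ g : G, ∑ x : Ω, if A x ∧ g • x = x then 1 else 0

theorem cnt_orbit (a : Ω) : cnt G (fun z => ∃ g : G, g • a = z) = Nat.card G := by
  classical
  unfold cnt
  convert (sum_trans (G := G) (fun z => ∃ g : G, g • a = z)
    (fun g z ⟨k, h⟩ => ⟨g * k, by rw [mul_smul, h]⟩) (x₀ := a) ⟨1, one_smul _ _⟩ fun _ h => h).1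

theorem cnt_add {A : Ω → Prop} (B : Ω → Prop) (h : ∀ z, B z → A z) :
    cnt G A = cnt G B + cnt G fun z => A z ∧ ¬ B z := by
  classical
  unfold cnt
  simp only [← sum_add_distrib]
  refine sum_congr rfl fun g _ => sum_congr rfl fun z _ => ?_
  by_cases e : B z
  · simp [e, h z e]
  · simp [e]

theorem not_of_cnt {A : Ω → Prop} (hA : ∀ (g : G) x, A x → A (g • x)) (h : cnt G A = 0) (z : Ω) :
    ¬ A z := by
  classical
  obtain ⟨r, h1, h2⟩ := exists_orbits (G := G) A hA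
  have h3 : (r : ℂ) * Nat.card G = 0 := by
    rw [← h1]; refine Eq.trans ?_ h; unfold cnt; congr
  have h4 : r = 0 := by exact_mod_cast (mul_eq_zero.1 h3).resolve_right (natCard_complex_ne_zero G)
  rw [h4, zero_mul, Nat.le_zero, card_eq_zero, filter_eq_empty_iff] at h2
  exact h2 (mem_univ z)

theorem exists_third [IsPretransitive G Ω] (h3 : classInner (pch Ω : G → ℂ) (pch Ω) = 3)
    {α β : Ω} (hab : β ≠ α) : ∃ γ, γ ≠ α ∧ (¬ ∃ g : G, g • α = α ∧ g • β = γ) ∧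
      ∀ ω ω', ω' ≠ ω → (¬ ∃ g : G, g • α = ω ∧ g • β = ω') → ∃ g : G, g • α = ω ∧ g • γ = ω' := by
  classical
  have hG : (Nat.card G : ℂ) ≠ 0 := natCard_complex_ne_zero G
  let R : Ω × Ω → Ω × Ω → Prop := fun a z => ∃ g : G, g • a = z
  have hR : ∀ a (g : G) z, R a (g • z) ↔ R a z := fun a g z =>
    ⟨fun ⟨k, h⟩ => ⟨g⁻¹ * k, by rw [mul_smul, h, inv_smul_smul]⟩,
      fun ⟨k, h⟩ => ⟨g * k, by rw [mul_smul, h]⟩⟩
  have hR' : ∀ a b ω ω', R (a, b) (ω, ω') ↔ ∃ g : G, g • a = ω ∧ g • b = ω' := fun a b ω ω' =>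
    exists_congr fun g => Prod.ext_iff
  have hD : ∀ ω ω', R (α, α) (ω, ω') ↔ ω' = ω := fun ω ω' => by
    rw [hR']
    refine ⟨fun ⟨g, h1, h2⟩ => h2.symm.trans h1, fun e => ?_⟩
    obtain ⟨g, hg⟩ := exists_smul_eq G α ω
    exact ⟨g, hg, hg.trans e.symm⟩
  have hne : ∀ γ, γ ≠ α → ∀ z, R (α, γ) z → ¬ R (α, α) z := fun γ hγ z ⟨g, h1⟩ h2 =>
    hγ ((hD _ _).1 ((hR _ g _).1 (h1 ▸ h2)))
  have t3 : cnt G (fun z => (True ∧ ¬ R (α, α) z) ∧ ¬ R (α, β) z) = Nat.card G := by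
    have h1 : cnt G (fun _ : Ω × Ω => True) = Nat.card G * 3 := by
      rw [← h3, card_mul_inner_pch]
      unfold cnt
      refine sum_congr rfl fun g _ => sum_congr rfl fun z _ => ?_
      by_cases e : g • z = z <;> simp [e]
    rw [cnt_add (R (α, α)) fun _ _ => trivial, cnt_orbit,
      cnt_add (R (α, β)) fun z hz => ⟨trivial, hne β hab z hz⟩, cnt_orbit] at h1
    linear_combination h1
  obtain ⟨z₀, h1, h2⟩ : ∃ z : Ω × Ω, ¬ R (α, α) z ∧ ¬ R (α, β) z := by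
    by_contra hc
    exact hG (t3.symm.trans (sum_eq_zero fun g _ => sum_eq_zero fun z _ =>
      if_neg fun e => hc ⟨z, e.1.1.2, e.1.2⟩))
  obtain ⟨k, hk⟩ := exists_smul_eq G z₀.1 α
  have e0 : k • z₀ = (α, k • z₀.2) := Prod.ext hk rfl
  rw [← hR _ k, e0] at h1 h2
  generalize k • z₀.2 = γ at h1 h2
  rw [hD] at h1
  refine ⟨γ, h1, fun e => h2 ((hR' _ _ _ _).2 e), fun ω ω' h6 h7 => ?_⟩
  rw [cnt_add (R (α, γ)) fun z hz => ⟨⟨trivial, hne γ h1 z hz⟩, fun e => by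
    obtain ⟨g, rfl⟩ := hz
    exact h2 ((hR _ g _).1 e)⟩, cnt_orbit, add_eq_left] at t3
  by_contra hc
  exact not_of_cnt (fun g z hz => by simpa only [hR] using hz) t3 (ω, ω')
    ⟨⟨⟨trivial, fun e => h6 ((hD _ _).1 e)⟩, fun e => h7 ((hR' _ _ _ _).1 e)⟩,
      fun e => hc ((hR' _ _ _ _).1 e)⟩

variable {p : ℕ} [hp : Fact p.Prime] {x : G}

theorem Hyp.rank_three (h : Hyp Ω p x) {χ ψ : IrrCharacter G} (h1 : χ ≠ triv G) (h2 : ψ ≠ triv G)
    (h3 : χ ≠ ψ) (hπ : (pch Ω : G → ℂ) = 1 + χ.1 + ψ.1) (c1 : χ.1 1 = 2 * p - 1) (d1 : ψ.1 1 = p)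
    (cx : χ.1 x = -1) (dx : ψ.1 x = 0) {t : G} (ht : orderOf t = 2) (ct : χ.1 t = 1)
    (hf : nf Ω t = 3) {α β : Ω} (hab : β ≠ α) :
    ∃ ρ : ℤ, 2 * p = 6 * ρ ^ 2 + 3 * ρ + 1 ∧ ∀ s : ℤ,
      s ∣ {ω | ω ≠ α ∧ ¬ ∃ g : G, g • α = α ∧ g • β = ω}.ncard → s ∣ 2 * p - 2 → s ∣ 8 := by
  classical
  have := h.tr
  have hp3 := h.p3
  have hp0 : (p : ℂ) ≠ 0 := by exact_mod_cast hp.out.ne_zero
  have hn0 : (2 * p - 1 : ℂ) ≠ 0 := by
    have : (2 * p - 1 : ℤ) ≠ 0 := by omega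
    exact_mod_cast this
  have dt : ψ.1 t = 1 := by
    have := congrFun hπ t
    rw [pch_nf, hf, Pi.add_apply, Pi.add_apply, ct, Pi.one_apply] at this
    push_cast at this
    linear_combination -this
  obtain ⟨γ, g1, g2, g3⟩ := exists_third (G := G) (by
    rw [hπ, show (1 : G → ℂ) = (triv G).1 from rfl]
    simp only [classInner_add_left, classInner_add_right, irr_inner]
    simp [h1, h2, h3, h1.symm, h2.symm, h3.symm]
    norm_num) hab
  have hW : ∀ g, (2 * p - 1 : ℂ) * p * ∑ ω : Ω, (tw t (g • ω) ω : ℂ) =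
      Nat.card G * ((2 * p - 1) * p + p * χ.1 g + (2 * p - 1) * ψ.1 g) := fun g => by
    have e1 := χ.2.sum_conj_mul t g
    have e2 := ψ.2.sum_conj_mul t g
    rw [c1, ct] at e1
    rw [d1, dt] at e2
    rw [← sum_tw, hπ]
    simp only [Pi.add_apply, Pi.one_apply, sum_add_distrib, sum_const, card_univ, nsmul_eq_mul,
      ← Nat.card_eq_fintype_card]
    linear_combination p * e1 + (2 * p - 1) * e2
  let R : Ω → Ω → Prop := fun ω ω' => ∃ g : G, g • α = ω ∧ g • β = ω'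
  have hT : ∀ ω ω', ω' ≠ ω → tw t ω ω' = if R ω ω' then tw t α β else tw t α γ := fun ω ω' e => by
    split_ifs with e'
    · obtain ⟨g, rfl, rfl⟩ := e'
      exact tw_smul _ _ _ _
    · obtain ⟨g, rfl, rfl⟩ := g3 ω ω' e e'
      exact tw_smul _ _ _ _
  have hinv : ∀ (F : ℕ → ℕ) (ω : Ω), ∑ ω', F (tw t ω ω') = ∑ ω', F (tw t α ω') := fun F ω => by
    obtain ⟨g, rfl⟩ := exists_smul_eq G α ω
    rw [← Equiv.sum_comp (MulAction.toPerm g)]
    simp only [toPerm_apply, tw_smul]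
  obtain ⟨k, hk⟩ : ∃ k, k = (univ.filter fun ω => ω ≠ α ∧ R α ω).card := ⟨_, rfl⟩
  obtain ⟨l, hl⟩ : ∃ l, l = (univ.filter fun ω => ω ≠ α ∧ ¬ R α ω).card := ⟨_, rfl⟩
  have hrow : ∀ F : ℕ → ℕ, ∑ ω', F (tw t α ω') =
      F (tw t α α) + k * F (tw t α β) + l * F (tw t α γ) := fun F => by
    rw [hk, hl, card_filter, card_filter, sum_mul, sum_mul, add_assoc, ← sum_add_distrib,
      ← add_sum_erase _ _ (mem_univ α), ← sum_erase (s := univ) (a := α) (by simp)]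
    congr 1
    refine sum_congr rfl fun ω hω => ?_
    have e := ne_of_mem_erase hω
    rw [hT α ω e]
    by_cases e' : R α ω <;> simp [e, e']
  have hG := h.card_eq α
  obtain ⟨H, hH⟩ : ∃ H, H = Nat.card (stabilizer G α) := ⟨_, rfl⟩
  have hH0 : 0 < H := hH ▸ Nat.card_pos
  rw [← hH] at hG
  have e1 : 1 + k + l = 3 * p := by
    have := hrow fun _ => 1
    simp only [sum_const, card_univ, h.card, smul_eq_mul, mul_one] at this
    exact this.symm
  have e0 : tw t α α = 3 * H := by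
    have h4 := hW 1
    rw [sum_congr rfl (g := fun _ => (tw t α α : ℂ)) fun ω _ => by
      obtain ⟨g, rfl⟩ := exists_smul_eq G α ω
      rw [one_smul, tw_smul], sum_const, card_univ, h.card, c1, d1, hG, nsmul_eq_mul] at h4
    push_cast at h4
    have h5 : (tw t α α : ℂ) = 3 * H := by
      apply mul_left_cancel₀ (mul_ne_zero (mul_ne_zero hn0 hp0) (mul_ne_zero three_ne_zero hp0))
      linear_combination h4
    exact_mod_cast h5
  have e2 : 3 * p * H = 3 * H + k * tw t α β + l * tw t α γ := by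
    have h4 := sum_tw_mul t α fun _ => 1
    simp only [mul_one, sum_const, card_univ, smul_eq_mul, ← Nat.card_eq_fintype_card] at h4
    rw [← hG, h4, hrow fun a => a, e0]
  have e3 : (2 * p - 1 : ℤ) * (k * tw t α β ^ 2 + l * tw t α γ ^ 2) = 6 * H ^ 2 * (p - 1) ^ 2 := by
    have h4 : ∑ y : G, ∑ ω : Ω, tw t ((y * t * y⁻¹) • ω) ω =
        3 * p * ((3 * H) ^ 2 + k * tw t α β ^ 2 + l * tw t α γ ^ 2) := by
      rw [sum_comm, sum_congr rfl (g := fun _ => (3 * H) ^ 2 + k * tw t α β ^ 2 + l * tw t α γ ^ 2)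
        fun ω _ => by
          rw [sum_tw_mul t ω fun ω' => tw t ω' ω, ← e0, ← hrow fun a => a ^ 2,
            ← hinv (fun a => a ^ 2) ω]
          exact sum_congr rfl fun ω' _ => by rw [tw_symm ht ω' ω, sq], sum_const, card_univ, h.card,
        smul_eq_mul]
    have h5 : ∑ y : G, (2 * p - 1 : ℂ) * p * ∑ ω : Ω, (tw t ((y * t * y⁻¹) • ω) ω : ℂ) =
        Nat.card G * (Nat.card G * ((2 * p - 1) * p + p + (2 * p - 1))) := by
      rw [sum_congr rfl fun y _ => by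
        rw [hW, χ.2.isClassFunction, ψ.2.isClassFunction, ct, dt, mul_one, mul_one], sum_const,
        card_univ, nsmul_eq_mul, ← Nat.card_eq_fintype_card]
    have h6 : ∑ y : G, ∑ ω : Ω, (tw t ((y * t * y⁻¹) • ω) ω : ℂ) =
        3 * p * ((3 * H) ^ 2 + k * tw t α β ^ 2 + l * tw t α γ ^ 2) := by exact_mod_cast h4
    rw [← mul_sum, h6, hG] at h5
    push_cast at h5
    have h7 : (2 * p - 1 : ℂ) * (k * tw t α β ^ 2 + l * tw t α γ ^ 2) = 6 * H ^ 2 * (p - 1) ^ 2 := by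
      apply mul_left_cancel₀ (mul_ne_zero hp0 (mul_ne_zero three_ne_zero hp0))
      linear_combination h5
    exact_mod_cast h7
  obtain ⟨m, hm⟩ : p ∣ (univ.filter fun ω => R ω (x • ω)).card := by
    have h4 := Steiner.card_dvd_ncard_of_free (zpowers x) {ω | R ω (x • ω)}
      (fun u hu ω ⟨g, h5, h6⟩ => ⟨u * g, by rw [mul_smul, h5], by
        obtain ⟨i, rfl⟩ := mem_zpowers_iff.1 hu
        rw [mul_smul, h6, ← mul_smul, ← mul_smul, (Commute.refl x).zpow_left]⟩)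
      (fun u hu ω _ e => by
        by_contra h5
        obtain ⟨i, rfl⟩ := d1_exists_pow h.hx hu
        refine h.not_fix (orderOf_d1Pow h.hx ?_).symm.dvd ω e
        rintro rfl
        exact h5 (pow_zero x ▸ congrArg (x ^ ·) ZMod.val_zero))
    rwa [Nat.card_zpowers, h.hx, Set.ncard_eq_toFinset_card', Set.toFinset_setOf] at h4
  have m3 : m ≤ 3 := by
    have := card_le_univ (univ.filter fun ω => R ω (x • ω))
    rw [hm, h.card, mul_comm] at this
    exact Nat.le_of_mul_le_mul_right this hp.out.pos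
  have e4 : (2 * p - 1 : ℤ) * (m * tw t α β + (3 - m) * tw t α γ) = 6 * H * (p - 1) := by
    have h4 := hW x
    have h5 := card_filter_add_card_filter_not (s := univ) fun ω => R ω (x • ω)
    rw [hm, card_univ, h.card] at h5
    have h6 : ((univ.filter fun ω => ¬ R ω (x • ω)).card : ℂ) = p * (3 - m) := by
      have : ((p * m + (univ.filter fun ω => ¬ R ω (x • ω)).card : ℕ) : ℂ) = (3 * p : ℕ) := by
        rw [h5]
      push_cast at this
      linear_combination this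
    rw [sum_congr rfl fun ω _ => by
      rw [tw_symm ht, hT _ _ (h.not_fix h.hx.symm.dvd ω), Nat.cast_ite], sum_ite, sum_const,
      sum_const, nsmul_eq_mul, nsmul_eq_mul, hm, h6, cx, dx, hG] at h4
    push_cast at h4
    have h7 : (2 * p - 1 : ℂ) * (m * tw t α β + (3 - m) * tw t α γ) = 6 * H * (p - 1) := by
      apply mul_left_cancel₀ (mul_ne_zero hp0 hp0)
      linear_combination h4
    exact_mod_cast h7
  rw [Set.ncard_eq_toFinset_card', Set.toFinset_setOf, ← hl]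
  exact alg_main (k := k) (h := H) (m := m) (by omega) (by omega) (by omega)
    (by zify at e2; linear_combination -e2) e3 e4 (by omega) (by omega)

end Cfsg.Lib.Nagai
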